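import Cfsg.Agent.VAN.Rk.One
import Cfsg.Agent.VAN.Rk.TD4
import Cfsg.Agent.VAN.Rk.GThree
import Cfsg.Agent.VAN.Rk.TF4
import Cfsg.Agent.VAN.Rk.SpFour

/-!
# S4942: the rows of rank at most two (helper77)
-/

set_option autoImplicit false

namespace Cfsg.Agent.VAN.Rk

universe u

/-- the exceptional rows from the rows `F₄`, `E₆`, `E₇`, `E₈`, `²E₆` -/
theorem excRows (f4 : Row.{u} (fun G _ => Lie.IsoF4 G)) (e6 : Row.{u} (fun G _ => Lie.IsoChevE6 G))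
    (e7 : Row.{u} (fun G _ => Lie.IsoE7 G)) (e8 : Row.{u} (fun G _ => Lie.IsoE8 G))
    (e6t : Row.{u} (fun G _ => Lie.Iso2E6 G)) : ExcRows.{u} :=
  ⟨row_g2, f4, e6, e7, e8, e6t, row_d4t, row_sz, row_ree, row_f4t⟩

end Cfsg.Agent.VAN.Rk
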